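import Cfsg.Agent.H481.OddGen
import Cfsg.Agent.Lib.Cores
import Mathlib.GroupTheory.Schreier
import Mathlib.GroupTheory.Perm.Basic
import Mathlib.GroupTheory.SpecificGroups.Cyclic
set_option linter.all false

-- part: H481/Inv
section
/-!
# Odd-order elements inverted by an automorphism with square one: quotients

`J α` is the set of elements of odd order inverted by `α`; `cm α c = c α(c)⁻¹`; `Full α` says `[G, α] = G`.
-/

set_option autoImplicit false

namespace Cfsg.Agent.H481.Inv

universe u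

/-! ### Odd parts -/

/-- an exponent `e` such that `g ↦ g ^ e` is the projection to the odd part for all `g` with `g ^ n = 1` -/
structure OddExp (n e : ℕ) : Prop where
  ex : ∃ a r : ℕ, n = 2 ^ a * r ∧ Odd r ∧ 2 ^ a ∣ e ∧ e ≡ 1 [MOD r]

theorem exists_oddExp {n : ℕ} (hn : n ≠ 0) : ∃ e, OddExp n e := by
  obtain ⟨a, r, hr, hnr⟩ := Nat.exists_eq_two_pow_mul_odd hn
  have hc : Nat.Coprime (2 ^ a) r := Nat.Coprime.pow_left a (Nat.coprime_two_left.2 hr)
  obtain ⟨e, he1, he2⟩ := Nat.chineseRemainder hc 0 1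
  exact ⟨e, ⟨a, r, hnr, hr, (Nat.modEq_zero_iff_dvd.1 he1), he2⟩⟩

theorem OddExp.odd {n e : ℕ} (h : OddExp n e) {H : Type*} [Group H] {g : H} (hg : g ^ n = 1) :
    Odd (orderOf (g ^ e)) := by
  obtain ⟨a, r, hn, hr, ⟨b, hb⟩, _⟩ := h.ex
  have h1 : (g ^ e) ^ r = 1 := by
    rw [← pow_mul, hb]
    have : 2 ^ a * b * r = n * b := by rw [hn]; ring
    rw [this, pow_mul, hg, one_pow]
  exact Odd.of_dvd_nat hr (orderOf_dvd_of_pow_eq_one h1)

theorem OddExp.eq_self {n e : ℕ} (h : OddExp n e) {H : Type*} [Group H] {g : H} (hg : g ^ n = 1)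
    (ho : Odd (orderOf g)) : g ^ e = g := by
  obtain ⟨a, r, hn, hr, _, he⟩ := h.ex
  have h1 : orderOf g ∣ r := by
    have h2 : orderOf g ∣ 2 ^ a * r := by rw [← hn]; exact orderOf_dvd_of_pow_eq_one hg
    exact (Nat.Coprime.pow_right a (Nat.coprime_two_right.2 ho)).dvd_of_dvd_mul_left h2
  have h3 : g ^ e = g ^ 1 := by
    rw [pow_eq_pow_iff_modEq]
    exact he.of_dvd h1
  rw [h3, pow_one]

section

variable {G : Type u} [Group G] (α : MulAut G)

/-- the elements of odd order inverted by `α` -/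
def J : Set G := {g : G | Odd (orderOf g) ∧ α g = g⁻¹}

/-- the twisted commutator -/
def cm (c : G) : G := c * (α c)⁻¹

/-- `[G, α] = G` -/
def Full : Prop := Subgroup.closure (Set.range (fun c : G => c * (α c)⁻¹)) = ⊤

/-- the fixed points -/
def fixed : Subgroup G where
  carrier := {g | α g = g}
  one_mem' := map_one α
  mul_mem' := by
    intro a b ha hb
    change α (a * b) = a * b
    rw [map_mul, show α a = a from ha, show α b = b from hb]
  inv_mem' := by
    intro a ha
    change α a⁻¹ = a⁻¹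
    rw [map_inv, show α a = a from ha]

theorem mem_fixed {g : G} : g ∈ fixed α ↔ α g = g := Iff.rfl

theorem mem_J {g : G} : g ∈ J α ↔ Odd (orderOf g) ∧ α g = g⁻¹ := Iff.rfl

theorem one_mem_J : (1 : G) ∈ J α := by
  refine ⟨by simp, by simp⟩

theorem inv_mem_J {g : G} (h : g ∈ J α) : g⁻¹ ∈ J α := by
  refine ⟨by rw [orderOf_inv]; exact h.1, by rw [map_inv, h.2]⟩

theorem pow_mem_J {g : G} (h : g ∈ J α) (n : ℕ) : g ^ n ∈ J α := by
  refine ⟨Odd.of_dvd_nat h.1 (orderOf_pow_dvd n), by rw [map_pow, h.2, inv_pow]⟩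

variable {α}

theorem cm_inv (h2 : ∀ x, α (α x) = x) (c : G) : α (cm α c) = (cm α c)⁻¹ := by
  simp only [cm, map_mul, map_inv, h2, mul_inv_rev, inv_inv]

/-- every element of `J` is the square of an element `h` of `J` and equal to `cm α h` -/
theorem exists_sqrt {x : G} (h : x ∈ J α) : ∃ y ∈ J α, y * y = x ∧ cm α y = x ∧ y ∈ Subgroup.zpowers x := by
  obtain ⟨k, hk⟩ := h.1
  have hx : x ^ (2 * k + 1) = 1 := by rw [← hk]; exact pow_orderOf_eq_one x
  refine ⟨x ^ (k + 1), pow_mem_J α h _, ?_, ?_, Subgroup.pow_mem _ (Subgroup.mem_zpowers x) _⟩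
  · rw [← pow_add, show k + 1 + (k + 1) = (2 * k + 1) + 1 by ring, pow_succ, hx, one_mul]
  · rw [cm, (pow_mem_J α h (k + 1)).2, inv_inv, ← pow_add, show k + 1 + (k + 1) = (2 * k + 1) + 1 by ring,
      pow_succ, hx, one_mul]

theorem J_subset_range {x : G} (h : x ∈ J α) : ∃ c, cm α c = x := by
  obtain ⟨y, _, _, h3, _⟩ := exists_sqrt h
  exact ⟨y, h3⟩

/-- `J` generates `G` when `[G, α] = G` -/
theorem closure_J [Finite G] (h2 : ∀ x, α (α x) = x) (hG : Full α) : Subgroup.closure (J α) = ⊤ := by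
  by_cases h1 : α = 1
  · subst h1
    have h3 : (⊤ : Subgroup G) = ⊥ := by
      have h4 := hG
      rw [Full] at h4
      rw [← h4, eq_bot_iff, Subgroup.closure_le]
      rintro _ ⟨c, rfl⟩
      simp
    rw [h3]
    exact eq_bot_iff.2 (by rw [← h3]; exact le_top)
  · have hord : orderOf α = 2 := by
      apply orderOf_eq_prime _ h1
      rw [pow_two]
      ext x
      exact h2 x
    exact Cfsg.Agent.H481.OddGen.closure_odd α hord hG

/-- conversely if `J` generates `G` then `[G, α] = G` -/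
theorem full_of_closure_J (h : Subgroup.closure (J α) = ⊤) : Full α := by
  rw [Full, eq_top_iff, ← h, Subgroup.closure_le]
  intro x hx
  obtain ⟨c, hc⟩ := J_subset_range hx
  exact Subgroup.subset_closure ⟨c, hc⟩

/-! ### Quotients -/

variable (α)

/-- the automorphism of the quotient -/
noncomputable def qa (N : Subgroup G) [N.Normal] (hN : N.map α.toMonoidHom = N) : MulAut (G ⧸ N) :=
  QuotientGroup.congr N N α hN

variable {α}

theorem qa_mk {N : Subgroup G} [N.Normal] (hN : N.map α.toMonoidHom = N) (g : G) :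
    qa α N hN (g : G ⧸ N) = (α g : G) := rfl

theorem qa_qa (h2 : ∀ x, α (α x) = x) {N : Subgroup G} [N.Normal] (hN : N.map α.toMonoidHom = N) (x : G ⧸ N) :
    qa α N hN (qa α N hN x) = x := by
  induction x using QuotientGroup.induction_on with
  | H g => rw [qa_mk, qa_mk, h2]

theorem map_eq_of (h2 : ∀ x, α (α x) = x) {N : Subgroup G} (h : ∀ x ∈ N, α x ∈ N) :
    N.map α.toMonoidHom = N := by
  apply le_antisymm
  · rintro _ ⟨x, hx, rfl⟩
    exact h x hx
  · intro x hx
    exact ⟨α x, h x hx, h2 x⟩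

theorem apply_mem_of {N : Subgroup G} (h : N.map α.toMonoidHom = N) {x : G} (hx : x ∈ N) : α x ∈ N := by
  have : α x ∈ N.map α.toMonoidHom := ⟨x, hx, rfl⟩
  rwa [h] at this

theorem full_qa (hG : Full α) {N : Subgroup G} [N.Normal] (hN : N.map α.toMonoidHom = N) : Full (qa α N hN) := by
  rw [Full] at hG ⊢
  have h1 := congrArg (Subgroup.map (QuotientGroup.mk' N)) hG
  rw [MonoidHom.map_closure, Subgroup.map_top_of_surjective _ (QuotientGroup.mk'_surjective N)] at h1
  rw [eq_top_iff, ← h1]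
  apply Subgroup.closure_mono
  rintro _ ⟨_, ⟨c, rfl⟩, rfl⟩
  exact ⟨(c : G ⧸ N), rfl⟩

theorem image_mem_J {N : Subgroup G} [N.Normal] (hN : N.map α.toMonoidHom = N) {x : G} (hx : x ∈ J α) :
    (x : G ⧸ N) ∈ J (qa α N hN) := by
  refine ⟨Odd.of_dvd_nat hx.1 (orderOf_map_dvd (QuotientGroup.mk' N) x), ?_⟩
  rw [qa_mk, hx.2]
  rfl

/-- every element of `J(G/N)` is the image of an element of `J(G)` -/
theorem exists_lift [Finite G] (h2 : ∀ x, α (α x) = x) {N : Subgroup G} [N.Normal]
    (hN : N.map α.toMonoidHom = N) {x : G ⧸ N} (hx : x ∈ J (qa α N hN)) : ∃ y ∈ J α, (y : G ⧸ N) = x := by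
  obtain ⟨c, hc⟩ := J_subset_range hx
  obtain ⟨g, rfl⟩ := QuotientGroup.mk_surjective c
  obtain ⟨e, he⟩ := exists_oddExp (n := Nat.card G) Nat.card_pos.ne'
  have h3 : ((cm α g : G) : G ⧸ N) = x := by rw [← hc]; rfl
  refine ⟨(cm α g) ^ e, ⟨he.odd (pow_card_eq_one' (x := cm α g)), ?_⟩, ?_⟩
  · rw [map_pow, cm_inv h2, inv_pow]
  · have h4 : ((cm α g ^ e : G) : G ⧸ N) = x ^ e := by rw [← h3]; rfl
    rw [h4]
    apply he.eq_self _ hx.1
    rw [← h3]
    have : ((cm α g : G) : G ⧸ N) ^ Nat.card G = ((cm α g ^ Nat.card G : G) : G ⧸ N) := rfl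
    rw [this, pow_card_eq_one']
    rfl

theorem card_J_qa_le [Finite G] (h2 : ∀ x, α (α x) = x) {N : Subgroup G} [N.Normal]
    (hN : N.map α.toMonoidHom = N) : Nat.card (J (qa α N hN)) ≤ Nat.card (J α) := by
  apply Nat.card_le_card_of_surjective
    (fun x : J α => (⟨((x : G) : G ⧸ N), image_mem_J hN x.2⟩ : J (qa α N hN)))
  rintro ⟨x, hx⟩
  obtain ⟨y, hy, rfl⟩ := exists_lift h2 hN hx
  exact ⟨⟨y, hy⟩, rfl⟩

/-- **Injectivity of `J(G) → J(G/N)` forces `N` to be central.** -/
theorem le_center_of_inj [Finite G] (h2 : ∀ x, α (α x) = x) (hG : Full α) {N : Subgroup G} (hNn : N.Normal)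
    (hN : ∀ x ∈ N, α x ∈ N) (hinj : ∀ x ∈ J α, ∀ y ∈ J α, x⁻¹ * y ∈ N → x = y) :
    N ≤ Subgroup.center G := by
  have hJtop := closure_J h2 hG
  obtain ⟨e, he⟩ := exists_oddExp (n := Nat.card G) Nat.card_pos.ne'
  -- an element commuting with `J` is central
  have hcen : ∀ z : G, (∀ x ∈ J α, x * z = z * x) → z ∈ Subgroup.center G := by
    intro z hz
    have h1 : Subgroup.closure (J α) ≤ Subgroup.centralizer {z} := by
      rw [Subgroup.closure_le]
      intro x hx
      rw [SetLike.mem_coe, Subgroup.mem_centralizer_singleton_iff]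
      exact hz x hx
    rw [hJtop] at h1
    rw [Subgroup.mem_center_iff]
    intro g
    exact Subgroup.mem_centralizer_singleton_iff.1 (h1 (Subgroup.mem_top g))
  -- main computation
  have key : ∀ n ∈ N, ∀ x ∈ J α, x⁻¹ * n * x * (α n)⁻¹ * x = x * (x⁻¹ * n * x * (α n)⁻¹) := by
    intro n hn x hx
    obtain ⟨h, hhJ, hhx, hcm, _⟩ := exists_sqrt hx
    set y := cm α (n * h) with hy
    have hyeq : y = n * x * (α n)⁻¹ := by
      rw [hy, cm, map_mul, mul_inv_rev]
      have : h * (α h)⁻¹ = x := hcm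
      calc n * h * ((α h)⁻¹ * (α n)⁻¹) = n * (h * (α h)⁻¹) * (α n)⁻¹ := by group
        _ = n * x * (α n)⁻¹ := by rw [this]
    have hyinv : α y = y⁻¹ := cm_inv h2 _
    have hyJ : y ^ e ∈ J α := ⟨he.odd pow_card_eq_one', by rw [map_pow, hyinv, inv_pow]⟩
    -- the images agree
    have hxe : x ^ e = x := he.eq_self pow_card_eq_one' hx.1
    have hmem : x⁻¹ * y ^ e ∈ N := by
      have := hNn
      rw [← QuotientGroup.eq]
      have h3 : (y : G ⧸ N) = (x : G ⧸ N) := by
        rw [QuotientGroup.eq, hyeq]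
        have : (n * x * (α n)⁻¹)⁻¹ * x = α n * (x⁻¹ * n⁻¹ * x) := by group
        rw [this]
        apply N.mul_mem (hN n hn)
        have := hNn.conj_mem n⁻¹ (N.inv_mem hn) x⁻¹
        simpa using this
      have h4 : ((y ^ e : G) : G ⧸ N) = (y : G ⧸ N) ^ e := rfl
      rw [h4, h3]
      have h5 : (x : G ⧸ N) ^ e = ((x ^ e : G) : G ⧸ N) := rfl
      rw [h5, hxe]
    have hye : x = y ^ e := hinj x hx _ hyJ hmem
    -- so `y` commutes with `x`
    have hcomm : y * x = x * y := by
      rw [hye]; exact (Commute.refl y).pow_right e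
    have h6 : x⁻¹ * y = x⁻¹ * n * x * (α n)⁻¹ := by rw [hyeq]; group
    rw [← h6]
    calc x⁻¹ * y * x = x⁻¹ * (y * x) := by group
      _ = x⁻¹ * (x * y) := by rw [hcomm]
      _ = x * (x⁻¹ * y) := by group
  -- `n α(n)⁻¹` is central
  have hz : ∀ n ∈ N, n * (α n)⁻¹ ∈ Subgroup.center G := by
    intro n hn
    apply hcen
    intro x hx
    -- apply `key` to `x` and `x^2`
    have k1 := key n hn x hx
    have k2' := key n hn (x ^ 2) (pow_mem_J α hx 2)
    set a := x⁻¹ * n * x * (α n)⁻¹ with ha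
    set b := (x ^ 2)⁻¹ * n * x ^ 2 * (α n)⁻¹ with hb
    -- `b` commutes with `x`, as `x` is a power of `x^2`
    have k2 : b * x = x * b := by
      obtain ⟨k, hk⟩ := hx.1
      have hxk : (x ^ 2) ^ (k + 1) = x := by
        rw [← pow_mul, show 2 * (k + 1) = (2 * k + 1) + 1 by ring, pow_succ, ← hk, pow_orderOf_eq_one, one_mul]
      have hc : Commute b (x ^ 2) := k2'
      have := hc.pow_right (k + 1)
      rw [hxk] at this
      exact this
    -- `b a⁻¹ = x⁻¹ (x⁻¹ n x n⁻¹) x`
    have hba : b * a⁻¹ = x⁻¹ * (x⁻¹ * n * x * n⁻¹) * x := by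
      rw [hb, ha]; group
    have ca : Commute a x := k1
    have cb : Commute b x := k2
    have cba : Commute (b * a⁻¹) x := cb.mul_left ca.inv_left
    have cc : Commute (x⁻¹ * n * x * n⁻¹) x := by
      rw [hba] at cba
      have h7 : x * (x⁻¹ * (x⁻¹ * n * x * n⁻¹) * x) * x⁻¹ = x⁻¹ * n * x * n⁻¹ := by group
      have h8 : Commute (x * (x⁻¹ * (x⁻¹ * n * x * n⁻¹) * x) * x⁻¹) x := by
        have := cba
        exact ((Commute.refl x).mul_left this).mul_left (Commute.refl x).inv_left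
      rwa [h7] at h8
    have h9 : n * (α n)⁻¹ = (x⁻¹ * n * x * n⁻¹)⁻¹ * a := by rw [ha]; group
    rw [h9]
    exact (cc.inv_left.mul_left ca).symm
  -- conclusion
  intro n hn
  have hzn := hz n hn
  apply hcen
  intro x hx
  set w := n * x * n⁻¹ * x⁻¹ with hw
  obtain ⟨h, _, _, hcm, _⟩ := exists_sqrt hx
  set z := n * (α n)⁻¹ with hzd
  have hαn : α n = z⁻¹ * n := by rw [hzd]; group
  have hzc : ∀ g, g * z = z * g := Subgroup.mem_center_iff.1 hzn
  have hzic : ∀ g, g * z⁻¹ = z⁻¹ * g := Subgroup.mem_center_iff.1 (Subgroup.inv_mem _ hzn)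
  -- `w` is central
  have hwc : w ∈ Subgroup.center G := by
    have hn' : h⁻¹ * n * h ∈ N := by
      have := hNn.conj_mem n hn h⁻¹
      simpa using this
    have h1 := hz _ hn'
    have h3 : h⁻¹ * n * h * (α (h⁻¹ * n * h))⁻¹ = h⁻¹ * (w * z) * h := by
      have hxh : x = h * (α h)⁻¹ := hcm.symm
      have h4 : α (h⁻¹ * n * h) = z⁻¹ * ((α h)⁻¹ * n * α h) := by
        rw [map_mul, map_mul, map_inv, hαn]
        have := hzic (α h)⁻¹
        calc (α h)⁻¹ * (z⁻¹ * n) * α h = ((α h)⁻¹ * z⁻¹) * n * α h := by group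
          _ = (z⁻¹ * (α h)⁻¹) * n * α h := by rw [this]
          _ = z⁻¹ * ((α h)⁻¹ * n * α h) := by group
      rw [h4, hw, hxh]
      have h5 : (z⁻¹ * ((α h)⁻¹ * n * α h))⁻¹ = ((α h)⁻¹ * n⁻¹ * α h) * z := by group
      rw [h5]
      have h6 := hzc (h⁻¹ * n * h * ((α h)⁻¹ * n⁻¹ * α h))
      calc h⁻¹ * n * h * ((α h)⁻¹ * n⁻¹ * α h * z) = (h⁻¹ * n * h * ((α h)⁻¹ * n⁻¹ * α h)) * z := by group
        _ = h⁻¹ * (n * (h * (α h)⁻¹) * n⁻¹ * (h * (α h)⁻¹)⁻¹) * (h * z) := by group
        _ = h⁻¹ * (n * (h * (α h)⁻¹) * n⁻¹ * (h * (α h)⁻¹)⁻¹) * (z * h) := by rw [hzc h]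
        _ = h⁻¹ * (n * (h * (α h)⁻¹) * n⁻¹ * (h * (α h)⁻¹)⁻¹ * z) * h := by group
    rw [h3] at h1
    have h7 : w * z ∈ Subgroup.center G := by
      have := (inferInstance : (Subgroup.center G).Normal).conj_mem _ h1 h
      have h8 : h * (h⁻¹ * (w * z) * h) * h⁻¹ = w * z := by group
      rwa [h8] at this
    have h9 : w = (w * z) * z⁻¹ := by group
    rw [h9]
    exact Subgroup.mul_mem _ h7 (Subgroup.inv_mem _ hzn)
  have hwcomm : ∀ g, g * w = w * g := Subgroup.mem_center_iff.1 hwc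
  have hwx : n * x * n⁻¹ = w * x := by rw [hw]; group
  have hwinv : α w = w⁻¹ := by
    have h1 : α w = n * x⁻¹ * n⁻¹ * x := by
      rw [hw]
      simp only [map_mul, map_inv, hαn, hx.2, inv_inv, mul_inv_rev]
      have e1 := hzc (n * x⁻¹ * n⁻¹)
      calc z⁻¹ * n * x⁻¹ * (n⁻¹ * z) * x = z⁻¹ * ((n * x⁻¹ * n⁻¹) * z) * x := by group
        _ = z⁻¹ * (z * (n * x⁻¹ * n⁻¹)) * x := by rw [e1]
        _ = n * x⁻¹ * n⁻¹ * x := by group
    rw [h1]
    have h3 : n * x⁻¹ * n⁻¹ = (w * x)⁻¹ := by rw [← hwx]; group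
    rw [h3, mul_inv_rev]
    have h4 : w⁻¹ * x = x * w⁻¹ := by
      have := hwcomm x
      calc w⁻¹ * x = w⁻¹ * (x * w) * w⁻¹ := by group
        _ = w⁻¹ * (w * x) * w⁻¹ := by rw [this]
        _ = x * w⁻¹ := by group
    rw [mul_assoc, h4]
    group
  have hwodd : Odd (orderOf w) := by
    apply Odd.of_dvd_nat hx.1
    apply orderOf_dvd_of_pow_eq_one
    have hc : Commute w x := (hwcomm x).symm
    have h1 : (w * x) ^ orderOf x = 1 := by
      rw [← hwx, conj_pow, pow_orderOf_eq_one]; group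
    rw [hc.mul_pow, pow_orderOf_eq_one, mul_one] at h1
    exact h1
  have hwN : w ∈ N := by
    have h1 : w = n * (x * n⁻¹ * x⁻¹) := by rw [hw]; group
    rw [h1]
    exact N.mul_mem hn (hNn.conj_mem _ (N.inv_mem hn) x)
  have hw1 : (1 : G) = w := hinj 1 (one_mem_J α) w ⟨hwodd, hwinv⟩ (by simpa using hwN)
  have h1 : n * x * n⁻¹ = x := by rw [hwx, ← hw1, one_mul]
  calc x * n = (n * x * n⁻¹) * n := by rw [h1]
    _ = n * x := by group

end

end Cfsg.Agent.H481.Inv
end

-- part: H481/InvBound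
section
/-!
# Bounding `|G|` by the number of elements of odd order inverted by an automorphism with square one

`brauer_fowler` : `|G|` is bounded by the number of fixed points and `|J α|` when `O_2(G) = 1`.
`fixed_center_le` : `ᾱ` has at most `|J α|!` fixed points on `G / Z(G)`.
`bounded` : `|G|` is bounded in terms of `|J α|` when `[G, α] = G`.
-/

set_option autoImplicit false

namespace Cfsg.Agent.H481.Inv

open Cfsg Cfsg.Agent.Lib.Cores
open scoped commutatorElement

universe u

section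

variable {G : Type u} [Group G] {α : MulAut G}

/-- restriction of `α` to an invariant subgroup -/
def ra (h2 : ∀ x, α (α x) = x) (N : Subgroup G) (hN : ∀ x ∈ N, α x ∈ N) : MulAut N where
  toFun x := ⟨α x, hN x x.2⟩
  invFun x := ⟨α x, hN x x.2⟩
  left_inv x := Subtype.ext (h2 x)
  right_inv x := Subtype.ext (h2 x)
  map_mul' x y := Subtype.ext (map_mul α (x : G) y)

theorem coe_ra (h2 : ∀ x, α (α x) = x) (N : Subgroup G) (hN : ∀ x ∈ N, α x ∈ N) (x : N) :
    ((ra h2 N hN x : N) : G) = α x := rfl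

theorem ra_ra (h2 : ∀ x, α (α x) = x) (N : Subgroup G) (hN : ∀ x ∈ N, α x ∈ N) (x : N) :
    ra h2 N hN (ra h2 N hN x) = x := Subtype.ext (h2 x)

theorem card_J_ra_le [Finite G] (h2 : ∀ x, α (α x) = x) (N : Subgroup G) (hN : ∀ x ∈ N, α x ∈ N) :
    Nat.card (J (ra h2 N hN)) ≤ Nat.card (J α) := by
  apply Nat.card_le_card_of_injective
    (fun x : J (ra h2 N hN) => (⟨((x : N) : G), by
      have h := x.2
      refine ⟨?_, ?_⟩
      · rw [Subgroup.orderOf_coe]; exact h.1
      · exact congrArg Subtype.val h.2⟩ : J α))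
  intro x y h
  apply Subtype.ext
  apply Subtype.ext
  have h3 := congrArg (Subtype.val : J α → G) h
  exact h3

theorem card_fixed_ra_lt [Finite G] (h2 : ∀ x, α (α x) = x) (N : Subgroup G) (hN : ∀ x ∈ N, α x ∈ N)
    {z : G} (hz : α z = z) (hzN : z ∉ N) : Nat.card (fixed (ra h2 N hN)) < Nat.card (fixed α) := by
  have h1 : (fixed (ra h2 N hN)).map N.subtype < fixed α := by
    rw [SetLike.lt_iff_le_and_exists]
    refine ⟨?_, z, hz, ?_⟩
    · rintro _ ⟨x, hx, rfl⟩
      exact congrArg Subtype.val hx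
    · rintro ⟨x, _, rfl⟩
      exact hzN x.2
  have h3 := Set.ncard_lt_ncard (s := (((fixed (ra h2 N hN)).map N.subtype : Subgroup G) : Set G))
    (t := ((fixed α : Subgroup G) : Set G)) h1 (Set.toFinite _)
  have h4 : Nat.card ((fixed (ra h2 N hN)).map N.subtype) = Nat.card (fixed (ra h2 N hN)) :=
    Subgroup.card_map_of_injective N.subtype_injective
  rw [← h4]
  exact h3

theorem cm_eq_iff {g h : G} : cm α g = cm α h ↔ h⁻¹ * g ∈ fixed α := by
  rw [mem_fixed, map_mul, map_inv, cm, cm]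
  constructor
  · intro e
    have h3 : g = h * (α h)⁻¹ * α g := by rw [← e]; group
    calc (α h)⁻¹ * α g = h⁻¹ * (h * (α h)⁻¹ * α g) := by group
      _ = h⁻¹ * g := by rw [← h3]
  · intro e
    calc g * (α g)⁻¹ = h * (h⁻¹ * g) * (α g)⁻¹ := by group
      _ = h * ((α h)⁻¹ * α g) * (α g)⁻¹ := by rw [e]
      _ = h * (α h)⁻¹ := by group

/-- `|G| = |fixed α| |range (cm α)|` -/
theorem card_eq_mul [Finite G] : Nat.card G = Nat.card (Set.range (cm α)) * Nat.card (fixed α) := by
  have h1 : (fixed α).index = Nat.card (Set.range (cm α)) := by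
    rw [Subgroup.index]
    refine Nat.card_congr ?_
    refine Equiv.ofBijective (Quotient.lift (fun g => (⟨cm α g, g, rfl⟩ : Set.range (cm α))) ?_) ⟨?_, ?_⟩
    · intro a b hab
      apply Subtype.ext
      have h : a⁻¹ * b ∈ fixed α := QuotientGroup.leftRel_apply.1 hab
      change cm α a = cm α b
      rw [cm_eq_iff]
      have h' := inv_mem h
      simpa using h'
    · intro x y
      induction x using QuotientGroup.induction_on with
      | H a =>
        induction y using QuotientGroup.induction_on with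
        | H b =>
          intro hxy
          have h4 : cm α a = cm α b := congrArg Subtype.val hxy
          rw [cm_eq_iff] at h4
          exact (QuotientGroup.eq.2 h4).symm
    · rintro ⟨_, g, rfl⟩
      exact ⟨(g : G ⧸ fixed α), rfl⟩
  rw [← h1, mul_comm, Subgroup.card_mul_index]

/-- elements of `range (cm α)` have odd order or centralize a fixed involution -/
theorem range_cm_subset [Finite G] (h2 : ∀ x, α (α x) = x) {y : G} (hy : y ∈ Set.range (cm α)) :
    y ∈ J α ∨ ∃ z : fixed α, (z : G) ≠ 1 ∧ (z : G) * z = 1 ∧ y ∈ Subgroup.centralizer {(z : G)} := by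
  obtain ⟨g, rfl⟩ := hy
  have hinv := cm_inv h2 g
  set y := cm α g
  rcases Nat.even_or_odd (orderOf y) with h | h
  · right
    obtain ⟨k, hk⟩ := h
    have hpos : 0 < orderOf y := orderOf_pos y
    have hz2 : y ^ k * y ^ k = 1 := by rw [← pow_add, ← hk, pow_orderOf_eq_one]
    have hz1 : y ^ k ≠ 1 := by
      intro h
      have := Nat.le_of_dvd (by omega) (orderOf_dvd_of_pow_eq_one h)
      omega
    refine ⟨⟨y ^ k, ?_⟩, hz1, hz2, ?_⟩
    · rw [mem_fixed, map_pow, hinv, inv_pow]
      exact (eq_inv_of_mul_eq_one_left hz2).symm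
    · rw [Subgroup.mem_centralizer_singleton_iff]
      exact (Commute.refl y).pow_right k
  · left
    exact ⟨h, hinv⟩

theorem card_range_le [Finite G] (h2 : ∀ x, α (α x) = x) {K : ℕ}
    (hK : ∀ z : G, α z = z → z ≠ 1 → z * z = 1 → Nat.card (Subgroup.centralizer {z}) ≤ K) :
    Nat.card (Set.range (cm α)) ≤ Nat.card (J α) + Nat.card (fixed α) * K := by
  classical
  let T : fixed α → Set G := fun z => if (z : G) ≠ 1 ∧ (z : G) * z = 1 then
    ((Subgroup.centralizer {(z : G)} : Subgroup G) : Set G) else ∅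
  have hT : ∀ z, (T z).ncard ≤ K := by
    intro z
    by_cases h : (z : G) ≠ 1 ∧ (z : G) * z = 1
    · simp only [T, if_pos h]
      exact hK z z.2 h.1 h.2
    · simp only [T, if_neg h, Set.ncard_empty]
      exact Nat.zero_le _
  have hsub : Set.range (cm α) ⊆ J α ∪ ⋃ z, T z := by
    intro y hy
    rcases range_cm_subset h2 hy with h | ⟨z, h1, h3, h4⟩
    · exact Or.inl h
    · right
      rw [Set.mem_iUnion]
      refine ⟨z, ?_⟩
      simp only [T, if_pos (And.intro h1 h3)]
      exact h4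
  have := Fintype.ofFinite (fixed α)
  have hU : (⋃ z, T z).ncard ≤ Nat.card (fixed α) * K := by
    have e1 : (⋃ z, T z) = ⋃ z ∈ (Finset.univ : Finset (fixed α)), T z := by simp
    rw [e1]
    refine (Finset.set_ncard_biUnion_le _ _).trans ?_
    refine (Finset.sum_le_card_nsmul _ _ K (fun z _ => hT z)).trans ?_
    rw [Finset.card_univ, smul_eq_mul, Nat.card_eq_fintype_card]
  calc Nat.card (Set.range (cm α)) = (Set.range (cm α)).ncard := rfl
    _ ≤ (J α ∪ ⋃ z, T z).ncard := Set.ncard_le_ncard hsub (Set.toFinite _)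
    _ ≤ (J α).ncard + (⋃ z, T z).ncard := Set.ncard_union_le _ _
    _ ≤ (J α).ncard + Nat.card (fixed α) * K := by omega
    _ = Nat.card (J α) + Nat.card (fixed α) * K := rfl

/-- either `|G|` is small or some fixed involution has a centralizer of small index -/
theorem brauer_fowler_step [Finite G] (h2 : ∀ x, α (α x) = x) :
    Nat.card G ≤ 2 * Nat.card (fixed α) * Nat.card (J α) ∨
      ∃ z : G, α z = z ∧ z ≠ 1 ∧ z * z = 1 ∧
        (Subgroup.centralizer {z}).index ≤ 2 * Nat.card (fixed α) ^ 2 := by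
  by_contra hcon
  push Not at hcon
  obtain ⟨hc1, hc2⟩ := hcon
  set c := Nat.card (fixed α) with hc
  have hcpos : 0 < c := Nat.card_pos
  have hK : ∀ z : G, α z = z → z ≠ 1 → z * z = 1 →
      Nat.card (Subgroup.centralizer {z}) ≤ Nat.card G / (2 * c ^ 2) := by
    intro z h1 h3 h4
    have h5 := hc2 z h1 h3 h4
    rw [Nat.le_div_iff_mul_le (by positivity)]
    have h6 := Subgroup.card_mul_index (Subgroup.centralizer {z})
    calc Nat.card (Subgroup.centralizer {z}) * (2 * c ^ 2)
        ≤ Nat.card (Subgroup.centralizer {z}) * (Subgroup.centralizer {z}).index :=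
          Nat.mul_le_mul_left _ h5.le
      _ = Nat.card G := h6
  have h7 := card_range_le h2 hK
  have h8 := card_eq_mul (α := α)
  rw [← hc] at h7 h8
  have h9 : 2 * Nat.card G ≤ 2 * (c * Nat.card (J α)) + Nat.card G := by
    calc 2 * Nat.card G = 2 * (Nat.card (Set.range (cm α)) * c) := by rw [h8]
      _ ≤ 2 * ((Nat.card (J α) + c * (Nat.card G / (2 * c ^ 2))) * c) := by gcongr
      _ = 2 * (c * Nat.card (J α)) + (2 * c ^ 2) * (Nat.card G / (2 * c ^ 2)) := by ring
      _ ≤ 2 * (c * Nat.card (J α)) + Nat.card G := by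
        have := Nat.mul_div_le (Nat.card G) (2 * c ^ 2)
        omega
  have h10 : 2 * (c * Nat.card (J α)) = 2 * c * Nat.card (J α) := by ring
  omega

theorem normalClosure_isPGroup {z : G} (hz : z * z = 1)
    (hcomm : ∀ g : G, Commute z (g * z * g⁻¹)) : IsPGroup 2 (Subgroup.normalClosure {z}) := by
  have h1 : ∀ a ∈ Group.conjugatesOfSet {z}, ∀ b ∈ Group.conjugatesOfSet {z}, Commute a b := by
    intro a ha b hb
    rw [Group.mem_conjugatesOfSet_iff] at ha hb
    obtain ⟨z1, hz1, ha⟩ := ha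
    obtain ⟨z2, hz2, hb⟩ := hb
    rw [Set.mem_singleton_iff] at hz1 hz2
    subst z1 z2
    obtain ⟨g, rfl⟩ := isConj_iff.1 ha
    obtain ⟨h, rfl⟩ := isConj_iff.1 hb
    have := hcomm (g⁻¹ * h)
    have h3 := this.map (MulAut.conj g).toMonoidHom
    have e1 : (MulAut.conj g).toMonoidHom z = g * z * g⁻¹ := rfl
    have e2 : (MulAut.conj g).toMonoidHom (g⁻¹ * h * z * (g⁻¹ * h)⁻¹) = h * z * h⁻¹ := by
      change g * (g⁻¹ * h * z * (g⁻¹ * h)⁻¹) * g⁻¹ = _
      group
    rw [e1, e2] at h3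
    exact h3
  have h2 : ∀ a ∈ Group.conjugatesOfSet {z}, a * a = 1 := by
    intro a ha
    rw [Group.mem_conjugatesOfSet_iff] at ha
    obtain ⟨z1, hz1, ha⟩ := ha
    rw [Set.mem_singleton_iff] at hz1
    subst z1
    obtain ⟨g, rfl⟩ := isConj_iff.1 ha
    calc g * z * g⁻¹ * (g * z * g⁻¹) = g * (z * z) * g⁻¹ := by group
      _ = 1 := by rw [hz]; group
  have hab : ∀ a ∈ Subgroup.normalClosure {z}, ∀ b ∈ Subgroup.normalClosure {z}, Commute a b := by
    intro a ha b hb
    have h5 : IsMulCommutative (Subgroup.closure (Group.conjugatesOfSet {z})) :=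
      Subgroup.isMulCommutative_closure (fun x hx y hy => h1 x hx y hy)
    have h6 := h5.is_comm.comm ⟨a, ha⟩ ⟨b, hb⟩
    exact congrArg Subtype.val h6
  have h3 : ∀ a ∈ Subgroup.normalClosure {z}, a * a = 1 := by
    intro a ha
    have hle : Subgroup.normalClosure {z} = Subgroup.closure (Group.conjugatesOfSet {z}) := rfl
    have ha' := ha
    rw [hle] at ha'
    induction ha' using Subgroup.closure_induction with
    | mem x hx => exact h2 x hx
    | one => simp
    | mul x y hx hy ihx ihy =>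
      have hc : Commute x y := hab x hx y hy
      have ex := ihx hx
      have ey := ihy hy
      calc x * y * (x * y) = x * (y * x) * y := by group
        _ = x * (x * y) * y := by rw [hc.eq]
        _ = (x * x) * (y * y) := by group
        _ = 1 := by rw [ex, ey, one_mul]
    | inv x hx ihx =>
      have ex := ihx hx
      rw [← mul_inv_rev, ex, inv_one]
  intro a
  refine ⟨1, ?_⟩
  rw [pow_one, pow_two]
  exact Subtype.ext (h3 a a.2)

theorem brauer_fowler_inv [Finite G] (h2 : ∀ x, α (α x) = x) (hO : pCore 2 G = ⊥) {z : G}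
    (hz : α z = z) (hz1 : z ≠ 1) (hz2 : z * z = 1) :
    ∃ N : Subgroup G, N.Normal ∧ (∀ x ∈ N, α x ∈ N) ∧ z ∉ N ∧
      N.index ≤ (Subgroup.centralizer {z}).index.factorial := by
  refine ⟨(Subgroup.centralizer {z}).normalCore, inferInstance, ?_, ?_, ?_⟩
  · intro x hx g
    have h1 := hx (α g)
    rw [Subgroup.mem_centralizer_singleton_iff] at h1 ⊢
    have h3 := congrArg α h1
    simp only [map_mul, map_inv, hz, h2] at h3
    exact h3
  · intro hzN
    have hp := normalClosure_isPGroup (z := z) hz2 (fun g => by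
      have h1 := hzN g
      rw [Subgroup.mem_centralizer_singleton_iff] at h1
      exact (Commute.symm h1))
    have h4 := le_pCore (Subgroup.normalClosure_normal (s := {z})) hp
    rw [hO] at h4
    have h5 : z ∈ Subgroup.normalClosure {z} := Subgroup.subset_normalClosure rfl
    exact hz1 (Subgroup.mem_bot.1 (h4 h5))
  · rw [Subgroup.normalCore_eq_ker, Subgroup.index_ker]
    refine (Nat.card_le_card_of_injective
      (Subtype.val : _ → Equiv.Perm (G ⧸ Subgroup.centralizer {z})) Subtype.val_injective).trans ?_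
    rw [Nat.card_perm]
    rfl

end

/-- a Brauer–Fowler bound -/
theorem brauer_fowler (m : ℕ) : ∀ c : ℕ, ∃ B : ℕ, ∀ (G : Type u) [Group G] [Finite G] (α : MulAut G),
    (∀ x, α (α x) = x) → pCore 2 G = ⊥ → Nat.card (fixed α) ≤ c → Nat.card (J α) ≤ m →
      Nat.card G ≤ B := by
  intro c
  induction c with
  | zero =>
    refine ⟨0, fun G _ _ α h2 hO hc hm => ?_⟩
    have : 0 < Nat.card (fixed α) := Nat.card_pos
    omega
  | succ c ih =>
    obtain ⟨B, hB⟩ := ih
    refine ⟨max (2 * (c + 1) * m) (B * (2 * (c + 1) ^ 2).factorial), fun G _ _ α h2 hO hc hm => ?_⟩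
    rcases brauer_fowler_step h2 with h | ⟨z, hz, hz1, hz2, hz3⟩
    · refine (h.trans ?_).trans (le_max_left _ _)
      gcongr
    · obtain ⟨N, hNn, hN, hzN, hNi⟩ := brauer_fowler_inv h2 hO hz hz1 hz2
      have h1 : Nat.card N ≤ B := by
        apply hB N (ra h2 N hN) (ra_ra h2 N hN)
        · have := map_subtype_pCore 2 hNn
          rw [hO, inf_bot_eq, Subgroup.map_eq_bot_iff_of_injective _ N.subtype_injective] at this
          exact this
        · have := card_fixed_ra_lt h2 N hN hz hzN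
          omega
        · exact (card_J_ra_le h2 N hN).trans hm
      refine le_trans ?_ (le_max_right _ _)
      rw [← Subgroup.card_mul_index N]
      apply Nat.mul_le_mul h1
      refine hNi.trans (Nat.factorial_le ?_)
      refine hz3.trans ?_
      gcongr

section

variable {G : Type u} [Group G] {α : MulAut G}

theorem mem_center_of_commute [Finite G] (h2 : ∀ x, α (α x) = x) (hG : Full α) {z : G}
    (hz : ∀ x ∈ J α, x * z = z * x) : z ∈ Subgroup.center G := by
  have h1 : Subgroup.closure (J α) ≤ Subgroup.centralizer {z} := by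
    rw [Subgroup.closure_le]
    intro x hx
    rw [SetLike.mem_coe, Subgroup.mem_centralizer_singleton_iff]
    exact hz x hx
  rw [closure_J h2 hG] at h1
  rw [Subgroup.mem_center_iff]
  intro g
  exact Subgroup.mem_centralizer_singleton_iff.1 (h1 (Subgroup.mem_top g))

theorem center_map (h2 : ∀ x, α (α x) = x) : (Subgroup.center G).map α.toMonoidHom = Subgroup.center G := by
  apply map_eq_of h2
  intro x hx
  rw [Subgroup.mem_center_iff] at hx ⊢
  intro g
  have h := congrArg α (hx (α g))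
  simp only [map_mul, h2] at h
  exact h

/-- conjugation by an element fixed modulo the centre preserves `J` -/
theorem conj_mem_J {g : G} (hg : (α g)⁻¹ * g ∈ Subgroup.center G) {x : G} (hx : x ∈ J α) :
    g * x * g⁻¹ ∈ J α := by
  refine ⟨?_, ?_⟩
  · have : orderOf (g * x * g⁻¹) = orderOf x := by
      have := MulEquiv.orderOf_eq (MulAut.conj g) x
      exact this
    rw [this]; exact hx.1
  · set w := (α g)⁻¹ * g with hw
    have hαg : α g = g * w⁻¹ := by rw [hw]; group
    have hc := Subgroup.mem_center_iff.1 (Subgroup.inv_mem _ hg)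
    rw [map_mul, map_mul, map_inv, hx.2, hαg]
    calc g * w⁻¹ * x⁻¹ * (g * w⁻¹)⁻¹ = g * (w⁻¹ * x⁻¹) * w * g⁻¹ := by group
      _ = g * (x⁻¹ * w⁻¹) * w * g⁻¹ := by rw [hc x⁻¹]
      _ = (g * x * g⁻¹)⁻¹ := by group

/-- `ᾱ` has at most `|J α|!` fixed points on `G / Z(G)` -/
theorem fixed_center_le [Finite G] (h2 : ∀ x, α (α x) = x) (hG : Full α) :
    Nat.card (fixed (qa α (Subgroup.center G) (center_map h2))) ≤ (Nat.card (J α)).factorial := by
  classical
  have hout : ∀ x : fixed (qa α (Subgroup.center G) (center_map h2)),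
      (α (Quotient.out (x : G ⧸ Subgroup.center G)))⁻¹ * Quotient.out (x : G ⧸ Subgroup.center G) ∈
        Subgroup.center G := by
    intro x
    rw [← QuotientGroup.eq]
    have h1 := x.2
    rw [mem_fixed] at h1
    have h3 : ((Quotient.out (x : G ⧸ Subgroup.center G) : G) : G ⧸ Subgroup.center G) = x :=
      QuotientGroup.out_eq' _
    rw [← qa_mk (center_map h2), h3, h1]
  let F : fixed (qa α (Subgroup.center G) (center_map h2)) → (J α → J α) := fun x y =>
    ⟨Quotient.out (x : G ⧸ Subgroup.center G) * y * (Quotient.out (x : G ⧸ Subgroup.center G))⁻¹,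
      conj_mem_J (hout x) y.2⟩
  have hFi : ∀ x, Function.Injective (F x) := by
    intro x y z h
    have h1 := congrArg Subtype.val h
    exact Subtype.ext (by simpa [F] using h1)
  have hFb : ∀ x, Function.Bijective (F x) := fun x => Finite.injective_iff_bijective.1 (hFi x)
  let F' : fixed (qa α (Subgroup.center G) (center_map h2)) → Equiv.Perm (J α) := fun x =>
    Equiv.ofBijective (F x) (hFb x)
  rw [← Nat.card_perm]
  apply Nat.card_le_card_of_injective F'
  intro x y hxy
  apply Subtype.ext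
  rw [← QuotientGroup.out_eq' (x : G ⧸ Subgroup.center G), ← QuotientGroup.out_eq' (y : G ⧸ Subgroup.center G),
    QuotientGroup.eq]
  apply mem_center_of_commute h2 hG
  intro z hz
  have h1 := congrArg (fun f : Equiv.Perm (J α) => ((f ⟨z, hz⟩ : J α) : G)) hxy
  change Quotient.out (x : G ⧸ Subgroup.center G) * z * (Quotient.out (x : G ⧸ Subgroup.center G))⁻¹ =
    Quotient.out (y : G ⧸ Subgroup.center G) * z * (Quotient.out (y : G ⧸ Subgroup.center G))⁻¹ at h1
  set a := Quotient.out (x : G ⧸ Subgroup.center G)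
  set b := Quotient.out (y : G ⧸ Subgroup.center G)
  calc z * (a⁻¹ * b) = a⁻¹ * (a * z * a⁻¹) * b := by group
    _ = a⁻¹ * (b * z * b⁻¹) * b := by rw [h1]
    _ = a⁻¹ * b * z := by group

/-- the abelianization has at most `|J α|` elements -/
theorem card_abelianization_le [Finite G] (h2 : ∀ x, α (α x) = x) (hG : Full α) :
    (commutator G).index ≤ Nat.card (J α) := by
  have hN : (commutator G).map α.toMonoidHom = commutator G := by
    apply map_eq_of h2
    intro x hx
    have h3 := (inferInstance : (commutator G).Characteristic)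
    rw [Subgroup.characteristic_iff_map_eq] at h3
    have h4 : α x ∈ (commutator G).map α.toMonoidHom := ⟨x, hx, rfl⟩
    rwa [h3] at h4
  have h1 := card_J_qa_le h2 hN
  refine le_trans ?_ h1
  have hfull := full_qa hG hN
  have hcl := closure_J (qa_qa h2 hN) hfull
  have hcomm : ∀ a b : G ⧸ commutator G, Commute a b := by
    intro a b
    have h := mul_comm (G := Abelianization G) a b
    exact h
  have hall : ∀ x : G ⧸ commutator G, x ∈ J (qa α (commutator G) hN) := by
    intro x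
    have hx : x ∈ Subgroup.closure (J (qa α (commutator G) hN)) := by rw [hcl]; trivial
    induction hx using Subgroup.closure_induction with
    | mem x hx => exact hx
    | one => exact one_mem_J _
    | mul x y _ _ ihx ihy =>
      refine ⟨?_, ?_⟩
      · exact Odd.of_dvd_nat (ihx.1.mul ihy.1) (hcomm x y).orderOf_mul_dvd_mul_orderOf
      · rw [map_mul, ihx.2, ihy.2, (hcomm x y).eq, mul_inv_rev]
    | inv x _ ihx => exact inv_mem_J _ ihx
  have heq : Nat.card (J (qa α (commutator G) hN)) = Nat.card (G ⧸ commutator G) := by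
    apply Nat.card_congr
    exact Equiv.subtypeUnivEquiv hall
  rw [heq]
  rfl

/-- an elementary abelian normal `2`-subgroup has order at most the square of the number of its fixed points -/
theorem card_elementary_le [Finite G] (h2 : ∀ x, α (α x) = x) (V : Subgroup G) (hV : ∀ x ∈ V, α x ∈ V)
    (hsq : ∀ x ∈ V, x * x = 1) :
    Nat.card V ≤ Nat.card (fixed α) ^ 2 := by
  have h1 := card_eq_mul (α := ra h2 V hV)
  have h3 : Nat.card (fixed (ra h2 V hV)) ≤ Nat.card (fixed α) := by
    apply Nat.card_le_card_of_injective (fun x : fixed (ra h2 V hV) =>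
      (⟨((x : V) : G), congrArg (Subtype.val : V → G) x.2⟩ : fixed α))
    intro x y h
    apply Subtype.ext
    apply Subtype.ext
    have h3 := congrArg (Subtype.val : fixed α → G) h
    exact h3
  have h4 : Nat.card (Set.range (cm (ra h2 V hV))) ≤ Nat.card (fixed α) := by
    apply Nat.card_le_card_of_injective (fun x : Set.range (cm (ra h2 V hV)) =>
      (⟨((x : V) : G), ?_⟩ : fixed α))
    · intro x y h
      apply Subtype.ext
      apply Subtype.ext
      have h3 := congrArg (Subtype.val : fixed α → G) h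
      exact h3
    · obtain ⟨x, ⟨c, hc⟩⟩ := x
      rw [mem_fixed]
      have h5 : α (x : G) = (x : G)⁻¹ := by
        have h6 := cm_inv (ra_ra h2 V hV) c
        rw [hc] at h6
        exact congrArg Subtype.val h6
      change α (x : G) = x
      rw [h5]
      exact (eq_inv_of_mul_eq_one_left (hsq x x.2)).symm
  rw [h1, pow_two]
  exact Nat.mul_le_mul h4 h3

/-- the number of commutators is at most the square of the index of the centre -/
theorem card_commutatorSet_le [Finite G] : Nat.card (commutatorSet G) ≤ (Subgroup.center G).index ^ 2 := by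
  have h1 : Nat.card ((G ⧸ Subgroup.center G) × (G ⧸ Subgroup.center G)) = (Subgroup.center G).index ^ 2 := by
    rw [Nat.card_prod, pow_two]
    rfl
  rw [← h1]
  apply Nat.card_le_card_of_surjective
    (fun p : (G ⧸ Subgroup.center G) × (G ⧸ Subgroup.center G) =>
      (⟨⁅Quotient.out p.1, Quotient.out p.2⁆, _, _, rfl⟩ : commutatorSet G))
  rintro ⟨_, a, b, rfl⟩
  refine ⟨((a : G ⧸ Subgroup.center G), (b : G ⧸ Subgroup.center G)), ?_⟩
  apply Subtype.ext
  obtain ⟨u, hu⟩ := QuotientGroup.mk_out_eq_mul (Subgroup.center G) a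
  obtain ⟨v, hv⟩ := QuotientGroup.mk_out_eq_mul (Subgroup.center G) b
  change ⁅Quotient.out (a : G ⧸ Subgroup.center G), Quotient.out (b : G ⧸ Subgroup.center G)⁆ = ⁅a, b⁆
  rw [hu, hv]
  have hu' := Subgroup.mem_center_iff.1 u.2
  have hv' := Subgroup.mem_center_iff.1 v.2
  simp only [commutatorElement_def, mul_inv_rev]
  calc a * ↑u * (b * ↑v) * ((↑u)⁻¹ * a⁻¹) * ((↑v)⁻¹ * b⁻¹)
      = a * ↑u * b * (↑v * (↑u)⁻¹ * a⁻¹) * (↑v)⁻¹ * b⁻¹ := by group
    _ = a * ↑u * b * ((↑u)⁻¹ * a⁻¹ * ↑v) * (↑v)⁻¹ * b⁻¹ := by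
        rw [show (↑v : G) * (↑u)⁻¹ * a⁻¹ = (↑u)⁻¹ * a⁻¹ * ↑v by
          have := hv' ((↑u)⁻¹ * a⁻¹)
          rw [this]; group]
    _ = a * (↑u * b) * (↑u)⁻¹ * a⁻¹ * b⁻¹ := by group
    _ = a * (b * ↑u) * (↑u)⁻¹ * a⁻¹ * b⁻¹ := by rw [← hu' b]
    _ = a * b * a⁻¹ * b⁻¹ := by group

theorem card_J_qa_lt [Finite G] (h2 : ∀ x, α (α x) = x) {N : Subgroup G} [N.Normal]
    (hN : N.map α.toMonoidHom = N) {x y : G} (hx : x ∈ J α) (hy : y ∈ J α) (hxy : x ≠ y) (h : x⁻¹ * y ∈ N) :
    Nat.card (J (qa α N hN)) < Nat.card (J α) := by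
  by_contra hcon
  push Not at hcon
  let F : J α → J (qa α N hN) := fun x => ⟨((x : G) : G ⧸ N), image_mem_J hN x.2⟩
  have hF : Function.Surjective F := by
    rintro ⟨x, hx⟩
    obtain ⟨y, hy, rfl⟩ := exists_lift h2 hN hx
    exact ⟨⟨y, hy⟩, rfl⟩
  have hb := hF.bijective_of_nat_card_le hcon
  have h3 : F ⟨x, hx⟩ = F ⟨y, hy⟩ := Subtype.ext (QuotientGroup.eq.2 h)
  exact hxy (congrArg Subtype.val (hb.1 h3))

/-- the elements of order at most two in the centre of `O_2` -/
def omegaZ (H : Type u) [Group H] : Subgroup H where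
  carrier := {x | x ∈ pCore 2 H ∧ x * x = 1 ∧ ∀ y ∈ pCore 2 H, x * y = y * x}
  one_mem' := ⟨one_mem _, by simp, fun y _ => by simp⟩
  mul_mem' := by
    rintro a b ⟨ha, ha2, ha3⟩ ⟨hb, hb2, hb3⟩
    refine ⟨mul_mem ha hb, ?_, ?_⟩
    · calc a * b * (a * b) = a * (b * a) * b := by group
        _ = a * (a * b) * b := by rw [ha3 b hb]
        _ = (a * a) * (b * b) := by group
        _ = 1 := by rw [ha2, hb2, one_mul]
    · intro y hy
      calc a * b * y = a * (b * y) := by group
        _ = a * (y * b) := by rw [hb3 y hy]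
        _ = (a * y) * b := by group
        _ = (y * a) * b := by rw [ha3 y hy]
        _ = y * (a * b) := by group
  inv_mem' := by
    rintro a ⟨ha, ha2, ha3⟩
    have : a⁻¹ = a := inv_eq_of_mul_eq_one_left ha2
    rw [this]
    exact ⟨ha, ha2, ha3⟩

theorem omegaZ_map {H : Type u} [Group H] (e : H ≃* H) {x : H} (hx : x ∈ omegaZ H) : e x ∈ omegaZ H := by
  obtain ⟨h1, h2, h3⟩ := hx
  have hmap := map_equiv_pCore e 2
  have hmem : ∀ y ∈ pCore 2 H, e y ∈ pCore 2 H := by
    intro y hy
    rw [← hmap]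
    exact ⟨y, hy, rfl⟩
  refine ⟨hmem x h1, by rw [← map_mul, h2, map_one], ?_⟩
  intro y hy
  rw [← hmap] at hy
  obtain ⟨w, hw, rfl⟩ := hy
  change e x * e w = e w * e x
  rw [← map_mul, ← map_mul, h3 w hw]

theorem omegaZ_normal (H : Type u) [Group H] : (omegaZ H).Normal :=
  ⟨fun _ hx g => omegaZ_map (MulAut.conj g) hx⟩

theorem exists_mem_omegaZ (H : Type u) [Group H] [Finite H] (hO : pCore 2 H ≠ ⊥) : ∃ x ∈ omegaZ H, x ≠ 1 := by
  have hp := pCore_isPGroup (G := H) 2
  have : Nontrivial (pCore 2 H) := (Subgroup.nontrivial_iff_ne_bot _).2 hO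
  have hF : Fact (Nat.Prime 2) := ⟨Nat.prime_two⟩
  have hc := hp.center_nontrivial
  have hpc := hp.to_subgroup (Subgroup.center (pCore 2 H))
  obtain ⟨n, hn, hn2⟩ := (IsPGroup.nontrivial_iff_card hpc).1 hc
  have h2 : 2 ∣ Nat.card (Subgroup.center (pCore 2 H)) := by
    rw [hn2]; exact dvd_pow_self 2 hn.ne'
  obtain ⟨z, hz⟩ := exists_prime_orderOf_dvd_card' 2 h2
  refine ⟨((z : pCore 2 H) : H), ⟨(z : pCore 2 H).2, ?_, ?_⟩, ?_⟩
  · have h3 : z * z = 1 := by
      have h5 := pow_orderOf_eq_one z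
      have h6 : z ^ orderOf z = z ^ 2 := congrArg (fun k => z ^ k) hz
      rw [h6, pow_two] at h5
      exact h5
    have h4 := congrArg (fun t : Subgroup.center (pCore 2 H) => ((t : pCore 2 H) : H)) h3
    exact h4
  · intro y hy
    have h3 := Subgroup.mem_center_iff.1 z.2 ⟨y, hy⟩
    exact (congrArg Subtype.val h3).symm
  · intro h
    have h3 : z = 1 := Subtype.ext (Subtype.ext h)
    rw [h3, orderOf_one] at hz
    omega

/-- the index of the centre is bounded -/
theorem index_center_le [Finite G] (h2 : ∀ x, α (α x) = x) (hG : Full α) {m B B1 : ℕ}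
    (hm : Nat.card (J α) ≤ m + 1)
    (hB : ∀ (G : Type u) [Group G] [Finite G] (α : MulAut G), (∀ x, α (α x) = x) → Full α →
      Nat.card (J α) ≤ m → Nat.card G ≤ B)
    (hB1 : ∀ (G : Type u) [Group G] [Finite G] (α : MulAut G),
      (∀ x, α (α x) = x) → pCore 2 G = ⊥ → Nat.card (fixed α) ≤ (m + 1).factorial →
        Nat.card (J α) ≤ m + 1 → Nat.card G ≤ B1) :
    (Subgroup.center G).index ≤ max B1 (((m + 1).factorial) ^ 2 * B) := by
  set Z := Subgroup.center G with hZ
  have hfix : Nat.card (fixed (qa α Z (center_map h2))) ≤ (m + 1).factorial :=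
    (fixed_center_le h2 hG).trans (Nat.factorial_le hm)
  have hqq := qa_qa h2 (center_map h2)
  by_cases hO : pCore 2 (G ⧸ Z) = ⊥
  · refine le_trans ?_ (le_max_left _ _)
    exact hB1 (G ⧸ Z) (qa α Z (center_map h2)) hqq hO hfix ((card_J_qa_le h2 _).trans hm)
  · refine le_trans ?_ (le_max_right _ _)
    set V := omegaZ (G ⧸ Z) with hV
    have hVn : V.Normal := omegaZ_normal _
    set N := V.comap (QuotientGroup.mk' Z) with hNdef
    have hNn : N.Normal := inferInstance
    have hNinv : ∀ x ∈ N, α x ∈ N := by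
      intro x hx
      exact omegaZ_map (qa α Z (center_map h2)) hx
    have hN := map_eq_of h2 hNinv
    have hnotle : ¬ N ≤ Z := by
      intro hle
      obtain ⟨x, hx, hx1⟩ := exists_mem_omegaZ (G ⧸ Z) hO
      obtain ⟨g, rfl⟩ := QuotientGroup.mk_surjective x
      have hgN : g ∈ N := hx
      exact hx1 ((QuotientGroup.eq_one_iff g).2 (hle hgN))
    have hex : ∃ x ∈ J α, ∃ y ∈ J α, x⁻¹ * y ∈ N ∧ x ≠ y := by
      by_contra hcon
      push Not at hcon
      exact hnotle (le_center_of_inj h2 hG hNn hNinv hcon)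
    obtain ⟨x, hx, y, hy, hxy, hne⟩ := hex
    have hlt := card_J_qa_lt h2 hN hx hy hne hxy
    have h3 : N.index ≤ B := hB (G ⧸ N) (qa α N hN) (qa_qa h2 hN) (full_qa hG hN) (by omega)
    have h4 : N.index = V.index := Subgroup.index_comap_of_surjective V (QuotientGroup.mk'_surjective Z)
    have h5 : Nat.card V ≤ ((m + 1).factorial) ^ 2 := by
      refine (card_elementary_le hqq V (fun x hx => omegaZ_map _ hx) (fun x hx => hx.2.1)).trans ?_
      gcongr
    have h6 : Nat.card (G ⧸ Z) = Nat.card V * V.index := (Subgroup.card_mul_index V).symm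
    change Nat.card (G ⧸ Z) ≤ _
    rw [h6, ← h4]
    exact Nat.mul_le_mul h5 h3

end

/-- **The main bound.** -/
theorem bounded : ∀ m : ℕ, ∃ B : ℕ, ∀ (G : Type u) [Group G] [Finite G] (α : MulAut G),
    (∀ x, α (α x) = x) → Full α → Nat.card (J α) ≤ m → Nat.card G ≤ B := by
  intro m
  induction m with
  | zero =>
    refine ⟨0, fun G _ _ α h2 hG hm => ?_⟩
    have : Nonempty (J α) := ⟨⟨1, one_mem_J α⟩⟩
    have h3 : 0 < Nat.card (J α) := Nat.card_pos
    omega
  | succ m ih =>
    obtain ⟨B, hB⟩ := ih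
    obtain ⟨B1, hB1⟩ := brauer_fowler.{u} (m + 1) (m + 1).factorial
    set K := max B1 (((m + 1).factorial) ^ 2 * B) with hK
    refine ⟨K ^ (K * K ^ 2 + 1) * (m + 1), fun G _ _ α h2 hG hm => ?_⟩
    have h3 : (Subgroup.center G).index ≤ K := index_center_le h2 hG hm hB hB1
    have hpos : 0 < (Subgroup.center G).index := Nat.pos_of_ne_zero Subgroup.index_ne_zero_of_finite
    have h4 : Nat.card (commutatorSet G) ≤ K ^ 2 :=
      (card_commutatorSet_le (G := G)).trans (Nat.pow_le_pow_left h3 2)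
    have h5 : Nat.card (commutator G) ≤ K ^ (K * K ^ 2 + 1) := by
      refine (Nat.le_of_dvd (pow_pos hpos _) (Subgroup.card_commutator_dvd_index_center_pow G)).trans ?_
      refine (Nat.pow_le_pow_left h3 _).trans ?_
      apply Nat.pow_le_pow_right (hpos.trans_le h3)
      gcongr
    rw [← Subgroup.card_mul_index (commutator G)]
    exact Nat.mul_le_mul h5 ((card_abelianization_le h2 hG).trans hm)

end Cfsg.Agent.H481.Inv
end
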